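import Mathlib
import Cfsg.Agent.H970.Om7.Main

/-!
# `Ω₇(q)`, `q = 5 ^ m`, has no element of order `5 (q² + 1)` (helper374)
-/

set_option autoImplicit false
set_option linter.unusedSectionVars false

namespace Cfsg.Agent.H374.S6

open QuadraticMap Module
open Cfsg.Agent.LieClassical.OrthCore Cfsg.Agent.LieClassical.OrthForms
open Cfsg.Agent.H160.QSpin Cfsg.Agent.H160.QDisc Cfsg.Agent.H160.QSplit Cfsg.Agent.H160.QRoots
  Cfsg.Agent.H160.QSemi Cfsg.Agent.H160.QReal Cfsg.Agent.H160.QModel Cfsg.Agent.H160.QFinal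
  Cfsg.Agent.H160.QUpper Cfsg.Agent.H160.QChar Cfsg.Agent.H970.Om7

section Enum

variable {K : Type*} [Field K] [DecidableEq K] {q : ℕ} {R : Multiset K}

/-- four elements -/
theorem four (hq : Function.Injective (fun x : K => x ^ q)) (hq0 : 0 < q) (h : Inv q R) (hc : R.card = 4) :
    (∃ μ, IsMin q μ 2 ∧ μ ^ (q ^ 2 + 1) = 1 ∧ R = (orb q μ 2).val) ∨ Bd R 2 (q ^ 2 - 1) := by
  have hd2 : ∀ x ∈ R, ∀ d, IsMin q x d → d ≤ 2 := fun x hx d hd => by
    have := d_le hq h hd hx; omega
  rcases small_cases hq hq0 h hd2 with ⟨μ, hμ, hmin, hpow⟩ | hall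
  · left
    obtain ⟨R', h3, h4, h5, h6, h7⟩ := peel hq h hmin
    have h8 : 1 ≤ R.count μ := Multiset.one_le_count_iff_mem.2 hμ
    have h9 : R.count μ = 1 := by omega
    have hR' : R'.card = 0 := by omega
    rw [Multiset.card_eq_zero] at hR'
    rw [h9, one_nsmul, hR', add_zero] at h3
    exact ⟨μ, hmin, hpow, h3⟩
  · exact Or.inr ⟨fun x => by have := cnt_le hq h x; omega, hall⟩

end Enum

variable {F : Type*} [Field F] [Fintype F] [DecidableEq F] {V : Type*} [AddCommGroup V] [Module F V]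
  [FiniteDimensional F V] [Finite V] {p : ℕ} [hp : Fact p.Prime] [CharP F p]

/-- no eigenvalues `±1`, dimension four -/
theorem neg_four (h2 : (2 : F) ≠ 0) (hp3 : 3 ≤ p) (hq4 : Fintype.card F % 4 = 1) {Q : QuadraticForm F V}
    (hQ : Nondeg Q) (hV : finrank F V = 4) {g : V ≃ₗ[F] V} (hgO : g ∈ O Q) (hdet : LinearEquiv.det g = 1)
    (h1 : ∀ v, g v = v → v = 0) (hm1 : ∀ v, g v = -v → v = 0) :
    g ^ (p * (Fintype.card F ^ 2 - 1)) = 1 ∨
      (dc Q = -1 ∧ (g ^ ((Fintype.card F ^ 2 + 1) / 2) = 1 ∨ g ^ ((Fintype.card F ^ 2 + 1) / 2) = LinearEquiv.neg F)) := by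
  classical
  obtain ⟨e, he⟩ := card_odd_eq h2
  have hee : Even e := by
    rw [Nat.even_iff]; omega
  have hq0 : 0 < Fintype.card F := Fintype.card_pos
  have hInv := inv_rts hQ hgO h1 hm1
  have hcard := card_rts (en g)
  rw [hV] at hcard
  have hdet1 : LinearMap.det (en g) = 1 := by
    have := congrArg Units.val hdet
    rwa [LinearEquiv.coe_det] at this
  obtain ⟨hne, hdcQ⟩ := dc_of_no_pm hQ hgO h1 hm1 hdet1
  have hm1F : (-1 : F) ≠ 1 := by
    intro h3
    apply h2
    have : (2 : F) = 1 - (-1) := by norm_num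
    rw [this, h3, sub_self]
  have hchar : ringChar F ≠ 2 := by
    intro h
    apply h2
    have := ringChar.spec F 2
    rw [h] at this
    exact_mod_cast this.2 dvd_rfl
  have hphi : phi (rts (en g)) ^ e = algebraMap F (AlgebraicClosure F)
      (((en g).charpoly.eval 1 * (en g).charpoly.eval (-1)) ^ e) := by
    rw [phi_rts, ← map_pow]
  have hex : ∀ {M N c : ℕ}, Bd (rts (en g)) M N → M ≤ p ^ c → g ^ (N * p ^ c) = 1 := by
    intro M N c hB hc
    apply en_inj
    rw [en_pow]
    exact pow_eq_one_of_bd hB hc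
  rcases four (frob_inj F) hq0 hInv hcard with ⟨μ, hmin, hpow, h3⟩ | hB
  swap
  · left
    have := hex (c := 1) hB (by rw [pow_one]; omega)
    rwa [pow_one, mul_comm] at this
  right
  have hcount : ∀ x, (rts (en g)).count x ≤ 1 := by
    intro x
    rw [h3]
    exact Multiset.nodup_iff_count_le_one.1 (orb _ μ 2).nodup x
  have hc : μ ^ (Fintype.card F ^ 2) = μ⁻¹ := by
    rw [← mul_left_inj' hmin.ne0, inv_mul_cancel₀ hmin.ne0, ← pow_succ, hpow]
  refine ⟨?_, ?_⟩
  · have hpo := (phi_orb (frob_inj F) (frob_sub F) he hmin).2 hc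
    rw [← h3, hphi, (hee.mul_left 2).neg_one_pow, one_mul] at hpo
    have hns : ¬ IsSquare ((en g).charpoly.eval 1 * (en g).charpoly.eval (-1)) := by
      intro hsq
      have h4 := (FiniteField.isSquare_iff hchar hne).1 hsq
      have h5 : Fintype.card F / 2 = e := by omega
      rw [h5] at h4
      rw [h4, map_one] at hpo
      apply hm1F
      apply (algebraMap F (AlgebraicClosure F)).injective
      rw [map_neg, map_one, ← hpo]
    rw [hdcQ, quadraticChar_neg_one_iff_not_isSquare.2 hns]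
  · have hodd2 : Odd (Fintype.card F ^ 2) := Odd.pow ⟨e, he⟩
    have hk : (Fintype.card F ^ 2 + 1) / 2 * 2 = Fintype.card F ^ 2 + 1 := by
      obtain ⟨k, hk⟩ := hodd2
      omega
    have hpm : μ ^ ((Fintype.card F ^ 2 + 1) / 2) = 1 ∨ μ ^ ((Fintype.card F ^ 2 + 1) / 2) = -1 := by
      have h10 := hpow
      rw [← hk, pow_mul, pow_two] at h10
      exact mul_self_eq_one_iff.1 h10
    have hoq : Odd (Fintype.card F) := ⟨e, he⟩
    rcases hpm with h10 | h10
    · left
      have hB : Bd (rts (en g)) 1 ((Fintype.card F ^ 2 + 1) / 2) := by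
        refine ⟨hcount, fun x hx => ?_⟩
        rw [h3] at hx
        exact ex_orb hx h10
      have := hex (c := 0) hB (by simp)
      simpa using this
    · right
      have hx1 : ∀ x ∈ rts (en g), x ^ ((Fintype.card F ^ 2 + 1) / 2) ≠ 1 := by
        intro x hx hx1
        rw [h3] at hx
        have h11 : x ^ ((Fintype.card F ^ 2 + 1) / 2) = -1 := by
          have hod : ∀ i : ℕ, ((-1 : AlgebraicClosure F)) ^ (Fintype.card F ^ i) = -1 := fun i =>
            (hoq.pow).neg_one_pow
          obtain ⟨i, _, rfl | rfl⟩ := mem_orb.1 hx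
          · rw [← pow_mul, mul_comm, pow_mul, h10, hod]
          · rw [inv_pow, ← pow_mul, mul_comm, pow_mul, h10, hod]
            norm_num
        rw [h11] at hx1
        apply hm1F
        apply (algebraMap F (AlgebraicClosure F)).injective
        rw [map_neg, map_one, hx1]
      have hh2 : g ^ ((Fintype.card F ^ 2 + 1) / 2) * g ^ ((Fintype.card F ^ 2 + 1) / 2) = 1 := by
        rw [← pow_two, ← pow_mul, hk]
        have hB : Bd (rts (en g)) 1 (Fintype.card F ^ 2 + 1) := by
          refine ⟨hcount, fun x hx => ?_⟩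
          rw [h3] at hx
          exact ex_orb hx hpow
        have := hex (c := 0) hB (by simp)
        simpa using this
      ext v
      rw [LinearEquiv.neg_apply]
      set h := g ^ ((Fintype.card F ^ 2 + 1) / 2) with hh
      have h5 : h (h v + v) = h v + v := by
        rw [map_add]
        have h6 : h (h v) = v := by
          rw [← LinearEquiv.mul_apply, hh2]
          rfl
        rw [h6, add_comm]
      have h7 : h v + v = 0 := by
        refine no_fixed (g := en g) (n := (Fintype.card F ^ 2 + 1) / 2) hx1 (v := h v + v) ?_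
        rw [← en_pow]
        exact h5
      exact eq_neg_of_add_eq_zero_left h7

/-- dimension seven: no element of order `p (q² + 1)` -/
theorem no_big (h2 : (2 : F) ≠ 0) (hp5 : 5 ≤ p) (hpF : p ∣ Fintype.card F) (hq4 : Fintype.card F % 4 = 1)
    {Q : QuadraticForm F V}
    (hQ : Nondeg Q) (hV : finrank F V = 7) {g : V ≃ₗ[F] V} (hg : El Q 1 g)
    (ho : orderOf g = p * (Fintype.card F ^ 2 + 1)) : False := by
  classical
  have hgE := hg
  obtain ⟨hgO, hdet, hsp⟩ := hg
  have hpp : p.Prime := hp.out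
  have hq0 : 0 < Fintype.card F := Fintype.card_pos
  obtain ⟨e', he'⟩ := card_odd_eq h2
  have hqodd : Odd (Fintype.card F) := ⟨e', he'⟩
  have hpq : p ≤ Fintype.card F := Nat.le_of_dvd hq0 hpF
  have hpodd : Odd p := hpp.odd_of_ne_two (by omega)
  -- arithmetic
  have hp2 : p ∣ Fintype.card F ^ 2 := hpF.trans (dvd_pow_self _ two_ne_zero)
  have hp3' : p ∣ Fintype.card F ^ 3 := hpF.trans (dvd_pow_self _ three_ne_zero)
  have hq2pos : 25 ≤ Fintype.card F ^ 2 := by nlinarith
  have hq3pos : 125 ≤ Fintype.card F ^ 3 := by nlinarith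
  have hnd1 : ¬ p ∣ Fintype.card F ^ 2 + 1 := by
    intro h
    have := (Nat.dvd_add_right hp2).1 h
    exact hpp.one_lt.ne' (Nat.dvd_one.1 this)
  have hnd2 : ¬ p ∣ Fintype.card F + 1 := by
    intro h
    have := (Nat.dvd_add_right hpF).1 h
    exact hpp.one_lt.ne' (Nat.dvd_one.1 this)
  have hnd3 : ¬ p ∣ Fintype.card F - 1 := by
    intro h
    have h3 : p ∣ Fintype.card F - (Fintype.card F - 1) := Nat.dvd_sub hpF h
    rw [show Fintype.card F - (Fintype.card F - 1) = 1 by omega] at h3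
    exact hpp.one_lt.ne' (Nat.dvd_one.1 h3)
  have hnd4 : ¬ p ∣ Fintype.card F ^ 3 - 1 := by
    intro h
    have h3 : p ∣ Fintype.card F ^ 3 - (Fintype.card F ^ 3 - 1) := Nat.dvd_sub hp3' h
    rw [show Fintype.card F ^ 3 - (Fintype.card F ^ 3 - 1) = 1 by omega] at h3
    exact hpp.one_lt.ne' (Nat.dvd_one.1 h3)
  have hnd5 : ¬ p ∣ Fintype.card F ^ 3 + 1 := by
    intro h
    have := (Nat.dvd_add_right hp3').1 h
    exact hpp.one_lt.ne' (Nat.dvd_one.1 this)
  -- the excluded exponents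
  have hnop : ∀ N, ¬ p ∣ N → g ^ N = 1 → False := by
    intro N hN h
    have h3 := orderOf_dvd_of_pow_eq_one h
    rw [ho] at h3
    exact hN ((dvd_mul_right _ _).trans h3)
  have hnom : g ^ (p * (Fintype.card F ^ 2 - 1)) = 1 → False := by
    intro h
    have h3 := orderOf_dvd_of_pow_eq_one h
    rw [ho] at h3
    have h4 := Nat.dvd_of_mul_dvd_mul_left hpp.pos h3
    have := Nat.le_of_dvd (by omega) h4
    omega
  have hnopp : g ^ (p ^ 2) = 1 → False := by
    intro h
    have h3 := orderOf_dvd_of_pow_eq_one h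
    rw [ho, show p ^ 2 = p * p by ring] at h3
    have h4 := Nat.dvd_of_mul_dvd_mul_left hpp.pos h3
    have := Nat.le_of_dvd hpp.pos h4
    nlinarith
  obtain ⟨n₁, n₂, Q₁, Q₂, g₁, g₂, e, he, hge, hno, hnil⟩ := split hgO
  obtain ⟨hQ₁, hQ₂⟩ := nondeg_of_prod (he.symm.nondeg hQ)
  have hprO : pr g₁ g₂ ∈ O (Q₁.prod Q₂) := by
    have := cj_mem_O he.symm hgO
    rwa [hge, cj_symm_cj] at this
  obtain ⟨hg₁, hg₂⟩ := pr_mem_O_iff.1 hprO
  have hdim : n₁ + n₂ = 7 := by
    have := e.finrank_eq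
    rw [hV] at this
    simpa using this
  have hg₂p : g₂ ^ (p ^ 2) = 1 := unip_pow hnil (by nlinarith)
  have hdet₂ : LinearEquiv.det g₂ = 1 := det_unip h2 hQ₂ hg₂ hg₂p
  have hdet₁ : LinearEquiv.det g₁ = 1 := by
    have h3 := hdet
    rw [hge, det_cj, det_pr, hdet₂, mul_one] at h3
    exact h3
  have hm1F : (-1 : F) ≠ 1 := by
    intro h3
    apply h2
    have : (2 : F) = 1 - (-1) := by norm_num
    rw [this, h3, sub_self]
  have hev₁ : Even n₁ := by
    have h3 := det_of_no_one hQ₁ hg₁ hno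
    have h4 : LinearMap.det (en g₁) = 1 := by
      have := congrArg Units.val hdet₁
      rwa [LinearEquiv.coe_det] at this
    rw [h4] at h3
    simp only [finrank_fintype_fun_eq_card, Fintype.card_fin] at h3
    by_contra hodd
    rw [Nat.not_even_iff_odd] at hodd
    rw [hodd.neg_one_pow] at h3
    exact hm1F h3.symm
  have hdone : ∀ N, g₁ ^ N = 1 → g₂ ^ N = 1 → g ^ N = 1 := by
    intro N hN1 hN2
    rw [hge, ← cj_pow, pr_pow, hN1, hN2, pr_one, cj_one]
  -- everything unipotent
  rcases Nat.eq_zero_or_pos n₁ with hn0 | hn0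
  · apply hnopp
    refine hdone _ ?_ hg₂p
    subst hn0
    ext x i
    exact i.elim0
  have hg₂p1 : g₂ ^ p = 1 := by
    have := unip_pow (p := p) (c := 1) hnil (by obtain ⟨k, hk⟩ := hev₁; rw [pow_one]; omega)
    rwa [pow_one] at this
  obtain ⟨m₁, m₂, R₁, R₂, a, b, e₁, he₁, hg₁e, haO, hbO, ha1, ham, hbnil⟩ := split_neg hg₁ hno
  obtain ⟨hR₁, hR₂⟩ := nondeg_of_prod (he₁.symm.nondeg hQ₁)
  have hdim₁ : m₁ + m₂ = n₁ := by
    have := e₁.finrank_eq
    simpa using this
  have hevm₁ : Even m₁ := by simpa using even_of_no_pm hR₁ haO ha1 ham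
  have hbp : b ^ p = 1 := by
    rcases Nat.eq_zero_or_pos m₂ with h0 | h0
    · subst h0
      ext x i
      exact i.elim0
    · obtain ⟨m, hm⟩ : ∃ m, m₂ = m + 1 := ⟨m₂ - 1, by omega⟩
      have hmo : Odd m := by
        obtain ⟨s, hs⟩ := hev₁
        obtain ⟨t, ht⟩ := hevm₁
        rw [Nat.odd_iff]; omega
      have h3 := unip_even h2 hR₂ hbO (by simp [hm]) hmo (by rw [← hm]; exact hbnil)
      have := unip_pow (p := p) (c := 1) h3 (by obtain ⟨s, hs⟩ := hev₁; rw [pow_one]; omega)
      rwa [pow_one] at this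
  have hb2p : (LinearEquiv.neg F * b) ^ (2 * p) = 1 := neg_mul_pow hbp
  have hdone₁ : ∀ N, a ^ N = 1 → 2 * p ∣ N → g ^ N = 1 := by
    intro N hN1 hN2
    refine hdone N ?_ (pow_dvd_one hg₂p1 (dvd_trans (Dvd.intro_left 2 rfl) hN2))
    rw [hg₁e, ← cj_pow, pr_pow, hN1, pow_dvd_one hb2p hN2, pr_one, cj_one]
  have h2m : 2 ∣ Fintype.card F ^ 2 - 1 := even_iff_two_dvd.1 (Nat.Odd.sub_odd hqodd.pow odd_one)
  have h2p : 2 ∣ Fintype.card F ^ 2 + 1 := even_iff_two_dvd.1 (Odd.add_odd hqodd.pow odd_one)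
  have hInv := inv_rts hR₁ haO ha1 ham
  have hcard := card_rts (en a)
  simp only [finrank_fintype_fun_eq_card, Fintype.card_fin] at hcard
  have hex : ∀ {M N c : ℕ}, Bd (rts (en a)) M N → M ≤ p ^ c → a ^ (N * p ^ c) = 1 := by
    intro M N c hB hc
    apply en_inj
    rw [en_pow]
    exact pow_eq_one_of_bd hB hc
  have hm₁ : m₁ = 0 ∨ m₁ = 2 ∨ m₁ = 4 ∨ m₁ = 6 := by
    obtain ⟨t, ht⟩ := hevm₁
    omega
  rcases hm₁ with hm | hm | hm | hm
  · apply hnom
    refine hdone₁ _ ?_ (by rw [mul_comm]; exact Nat.mul_dvd_mul_left p h2m)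
    subst hm
    ext x i
    exact i.elim0
  · apply hnom
    refine hdone₁ _ ?_ (by rw [mul_comm]; exact Nat.mul_dvd_mul_left p h2m)
    rcases one (frob_inj F) hq0 hInv (by rw [hcard, hm]) with hB | hB
    · have := hex (c := 0) hB (by simp)
      rw [pow_zero, mul_one] at this
      exact pow_dvd_one this ((sub_one_dvd _ 2).trans (Dvd.intro_left p rfl))
    · have := hex (c := 0) hB (by simp)
      rw [pow_zero, mul_one] at this
      exact pow_dvd_one this ((add_one_dvd_sq _).trans (Dvd.intro_left p rfl))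
  · -- four-dimensional part
    have hadet : LinearEquiv.det a = 1 := by
      have h3 := det_of_no_one hR₁ haO ha1
      simp only [finrank_fintype_fun_eq_card, Fintype.card_fin, hm] at h3
      rw [show ((-1 : F)) ^ 4 = 1 by norm_num] at h3
      apply Units.ext
      rw [LinearEquiv.coe_det]
      exact h3
    have hm₂ : m₂ = 0 ∨ m₂ = 2 := by
      obtain ⟨s, hs⟩ := hev₁
      omega
    have hk2 : (Fintype.card F ^ 2 + 1) / 2 * 2 = Fintype.card F ^ 2 + 1 := Nat.div_mul_cancel h2p
    rcases hm₂ with hm₂ | hm₂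
    · -- the spinor norm
      have hg₁no : ∀ v, g₁ v = -v → v = 0 := by
        intro v hv
        obtain ⟨⟨x, y⟩, rfl⟩ := e₁.surjective v
        have hy : y = 0 := by
          subst hm₂
          ext i
          exact i.elim0
        subst hy
        rw [hg₁e, cj_apply', pr_apply, ← map_neg] at hv
        have h3 := congrArg Prod.fst (e₁.injective hv)
        have h4 : x = 0 := ham x h3
        rw [h4]
        exact map_zero e₁
      have hn₁ : n₁ = 4 := by omega
      rcases neg_four (p := p) h2 (by omega) hq4 hQ₁ (by simp [hn₁]) hg₁ hdet₁ hno hg₁no with h | ⟨hdc, hg₁k⟩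
      · exact hnom (hdone _ h (by rw [pow_mul, hg₂p1, one_pow]))
      have hpk : p * (Fintype.card F ^ 2 + 1) / 2 = p * ((Fintype.card F ^ 2 + 1) / 2) :=
        Nat.mul_div_assoc _ h2p
      have hne1 : g ^ (p * ((Fintype.card F ^ 2 + 1) / 2)) ≠ 1 := by
        intro h3
        have h4 := orderOf_dvd_of_pow_eq_one h3
        rw [ho] at h4
        have h5 := Nat.dvd_of_mul_dvd_mul_left hpp.pos h4
        have := Nat.le_of_dvd (by omega) h5
        omega
      have hg₂k : g₂ ^ (p * ((Fintype.card F ^ 2 + 1) / 2)) = 1 := by rw [pow_mul, hg₂p1, one_pow]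
      rcases hg₁k with h3 | h3
      · apply hne1
        refine hdone _ ?_ hg₂k
        rw [mul_comm, pow_mul, h3, one_pow]
      · have hg₁k' : g₁ ^ (p * ((Fintype.card F ^ 2 + 1) / 2)) = LinearEquiv.neg F := by
          rw [mul_comm, pow_mul, h3]
          obtain ⟨j, hj⟩ := hpodd
          rw [hj, pow_succ, pow_mul, Cfsg.Agent.H160.QUpper.neg_pow_two, one_pow, one_mul]
        have h5 : El Q 1 (g ^ (p * ((Fintype.card F ^ 2 + 1) / 2))) := by
          have := hgE.pow (p * ((Fintype.card F ^ 2 + 1) / 2))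
          rwa [one_pow] at this
        have hgk : g ^ (p * ((Fintype.card F ^ 2 + 1) / 2)) = cj e (pr (LinearEquiv.neg F) 1) := by
          rw [hge, ← cj_pow, pr_pow, hg₁k', hg₂k]
        rw [hgk] at h5
        obtain ⟨h6, -, h7⟩ := h5
        have h8 := spin_cj he (pr_mem_O (neg_mem_O Q₁) (O Q₂).one_mem)
        have h9 : (⟨cj e (pr (LinearEquiv.neg F) 1), cj_mem_O he (pr_mem_O (neg_mem_O Q₁) (O Q₂).one_mem)⟩ : O Q) =
          ⟨cj e (pr (LinearEquiv.neg F) 1), h6⟩ := rfl
        rw [h9, h7, spin_pr h2 hQ₁ hQ₂ (neg_mem_O Q₁) (O Q₂).one_mem] at h8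
        have h10 : (⟨1, (O Q₂).one_mem⟩ : O Q₂) = 1 := rfl
        rw [h10, map_one, mul_one] at h8
        have h11 := spin_neg_one h2 hQ₁ (by simp [hn₁]; decide)
        rw [← h8] at h11
        rw [hdc] at h11
        exact absurd h11 (by decide)
    · -- everything semisimple
      rcases neg_four (p := p) h2 (by omega) hq4 hR₁ (by simp [hm]) haO hadet ha1 ham with h | ⟨hdc, h⟩
      · exact hnom (hdone₁ _ h (by rw [mul_comm]; exact Nat.mul_dvd_mul_left p h2m))
      have hn₂ : n₂ = 1 := by omega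
      have hg₂1 : g₂ = 1 := by
        subst hn₂
        apply en_inj
        rw [pow_one, sub_eq_zero] at hnil
        rw [hnil]
        rfl
      have hb1 : b = 1 := by
        have hbn : (en b - 1) ^ (1 + 1) = 0 := by
          have h3 : ∀ k, k = m₂ → (en b - 1) ^ k = 0 := by
            rintro k rfl
            exact hbnil
          exact h3 _ (by omega)
        have h3 := unip_even (n := 1) h2 hR₂ hbO (by simp [hm₂]) (by decide) hbn
        apply en_inj
        rw [pow_one, sub_eq_zero] at h3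
        rw [h3]
        rfl
      have haq : a ^ (Fintype.card F ^ 2 + 1) = 1 := by
        rw [← hk2, pow_mul]
        rcases h with h | h
        · rw [h, one_pow]
        · rw [h, Cfsg.Agent.H160.QUpper.neg_pow_two]
      refine hnop _ hnd1 (hdone _ ?_ (by rw [hg₂1, one_pow]))
      have hbq : (LinearEquiv.neg F * b : (Fin m₂ → F) ≃ₗ[F] (Fin m₂ → F)) ^ (Fintype.card F ^ 2 + 1) = 1 := by
        rw [hb1, mul_one, ← hk2, mul_comm, pow_mul, Cfsg.Agent.H160.QUpper.neg_pow_two, one_pow]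
      rw [hg₁e, ← cj_pow, pr_pow, haq, hbq, pr_one, cj_one]
  · -- six-dimensional part
    have hm₂ : m₂ = 0 := by
      obtain ⟨s, hs⟩ := hev₁
      omega
    have hn₂ : n₂ = 1 := by omega
    have hg₂1 : g₂ = 1 := by
      subst hn₂
      apply en_inj
      rw [pow_one, sub_eq_zero] at hnil
      rw [hnil]
      rfl
    have hb1 : ∀ b' : (Fin m₂ → F) ≃ₗ[F] (Fin m₂ → F), b' = 1 := by
      intro b'
      subst hm₂
      ext x i
      exact i.elim0
    have hd : ∀ N, a ^ N = 1 → g ^ N = 1 := fun N hN => hdone N (by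
      rw [hg₁e, ← cj_pow, pr_pow, hN, hb1 ((LinearEquiv.neg F * b) ^ _), pr_one, cj_one]) (by rw [hg₂1, one_pow])
    rcases three'' (frob_inj F) hq0 he' hInv (by rw [hcard, hm]) with ⟨μ, hmin, hR⟩ | hB | hB | hB
    · have hbd : ∀ i, μ ^ i = 1 → a ^ i = 1 := by
        intro i hi
        have hB : Bd (rts (en a)) 1 i := by
          refine ⟨fun x => ?_, fun x hx => ?_⟩
          · rw [hR]
            exact Multiset.nodup_iff_count_le_one.1 (orb _ μ 3).nodup x
          · rw [hR] at hx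
            exact ex_orb hx hi
        have := hex (c := 0) hB (by simp)
        simpa using this
      rcases hmin.eq with hc | hc
      · exact hnop _ hnd4 (hd _ (hbd _ (pow_sub_of_eq hmin.ne0 (pow_pos hq0 3) hc)))
      · exact hnop _ hnd5 (hd _ (hbd _ (pow_add_of_eq hmin.ne0 hc)))
    · refine hnop _ ?_ (hd _ (by simpa using hex (c := 0) hB (by simp)))
      intro h3
      rcases hpp.dvd_mul.1 h3 with h3 | h3
      · exact hnd1 h3
      · exact hnd2 (h3.trans (Nat.div_dvd_of_dvd (even_iff_two_dvd.1 (Odd.add_odd hqodd odd_one))))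
    · refine hnop _ ?_ (hd _ (by simpa using hex (c := 0) hB (by simp)))
      intro h3
      rcases hpp.dvd_mul.1 h3 with h3 | h3
      · exact hnd1 h3
      · exact hnd3 (h3.trans (Nat.div_dvd_of_dvd (even_iff_two_dvd.1 (Nat.Odd.sub_odd hqodd odd_one))))
    · have := hex (c := 1) hB (by rw [pow_one]; omega)
      rw [pow_one, mul_comm] at this
      exact hnom (hd _ this)

/-- **`Ω₇(q)`, `q = 5 ^ m`, has no element of order `5 (q² + 1)`** -/
theorem om_ne {F : Type*} [Field F] [Fintype F] {m : ℕ} (hm : 1 ≤ m) (hF : Fintype.card F = 5 ^ m)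
    (g : Cfsg.POmega F (Cfsg.quadFormOdd 3 F)) : orderOf g ≠ 5 * (Fintype.card F ^ 2 + 1) := by
  classical
  intro ho
  have := char_five hF
  have hp : Fact (Nat.Prime 5) := ⟨by norm_num⟩
  have h2 := two_ne hF
  obtain ⟨h, hh, ho'⟩ := (range_seven h2 (orderOf g)).1 ⟨g, rfl⟩
  refine no_big (p := 5) h2 le_rfl ?_ (q_facts hm hF).2 (nondeg_oddForm 3 F h2) (by simp) hh (ho'.trans ho)
  rw [hF]
  exact dvd_pow_self 5 (by omega)

end Cfsg.Agent.H374.S6
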