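import Cfsg.Agent.H202.T.Low
import Cfsg.Agent.H374.S6.DiffOm

/-!
# `PSp₆(q)` and `Ω₇(q)`, `q = 5 ^ m`, have different sets of element orders (helper374)
-/

set_option autoImplicit false

namespace Cfsg.Agent.H374.S6

/-- **`5 (q² + 1)` is an element order of `PSp₆(q)`, `q = 5 ^ m`** -/
theorem sp_has {F : Type*} [Field F] [Fintype F] {m : ℕ} (hm : 1 ≤ m) (hF : Fintype.card F = 5 ^ m) :
    ∃ g : Cfsg.PSp 3 F, orderOf g = 5 * (Fintype.card F ^ 2 + 1) := by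
  have := Cfsg.Agent.H970.Om7.char_five hF
  have hp : Fact (Nat.Prime 5) := ⟨by norm_num⟩
  have hodd : Odd (Fintype.card F) := by
    rw [hF]
    exact Odd.pow (by decide)
  obtain ⟨A, hA⟩ := Cfsg.Agent.H376.SpEmb.exists_plus F 2 (by norm_num)
  rw [Nat.card_eq_fintype_card] at hA
  refine Cfsg.Agent.H202.T.exists_char_mul (a := 2) (b := 1) hodd 5 le_rfl A hA fun h => ?_
  have h1 : 5 ∣ Fintype.card F ^ 2 := dvd_pow (Cfsg.Agent.H202.T.p_dvd (F := F) 5) two_ne_zero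
  have := (Nat.dvd_add_right h1).1 h
  omega

/-- the sets of element orders are different -/
theorem range_ne {F : Type*} [Field F] [Fintype F] {m : ℕ} (hm : 1 ≤ m) (hF : Fintype.card F = 5 ^ m) :
    Set.range (orderOf : Cfsg.PSp 3 F → ℕ) ≠ Set.range (orderOf : Cfsg.POmega F (Cfsg.quadFormOdd 3 F) → ℕ) := by
  intro h
  obtain ⟨g, hg⟩ := sp_has hm hF
  have h1 : 5 * (Fintype.card F ^ 2 + 1) ∈ Set.range (orderOf : Cfsg.PSp 3 F → ℕ) := ⟨g, hg⟩
  rw [h] at h1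
  obtain ⟨x, hx⟩ := h1
  exact om_ne hm hF x hx

end Cfsg.Agent.H374.S6
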